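import Mathlib
import Cfsg.Prelude.Def_Local

/-! Extraspecial 2-subgroups in elementwise form, and large extraspecial 2-subgroups. -/

set_option autoImplicit false

open scoped commutatorElement

namespace H96

/-- Elementwise form of: `Q` is an extraspecial 2-subgroup with centre generated by `z`. -/
structure ES {G : Type*} [Group G] (Q : Subgroup G) (z : G) : Prop where
  mem : z ∈ Q
  ne_one : z ≠ 1
  sq : z * z = 1
  cent : ∀ a ∈ Q, a * z = z * a
  conj : ∀ a ∈ Q, ∀ b ∈ Q, a * b * a⁻¹ = b ∨ a * b * a⁻¹ = b * z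
  center : ∀ a ∈ Q, (∀ b ∈ Q, a * b = b * a) → a = 1 ∨ a = z
  nonab : ∃ a ∈ Q, ∃ b ∈ Q, a * b ≠ b * a

namespace ES
variable {G : Type*} [Group G] {Q : Subgroup G} {z : G}

theorem inv_z (h : ES Q z) : z⁻¹ = z := inv_eq_of_mul_eq_one_right h.sq

theorem ne_mul_z (h : ES Q z) (b : G) : b ≠ b * z := fun e => h.ne_one (by simpa using e.symm)

open Classical in
/-- The sign character of an element acting trivially on `Q / ⟨z⟩`. -/
noncomputable def sgn (h : ES Q z) (g : G)
    (hg : ∀ b ∈ Q, g * b * g⁻¹ = b ∨ g * b * g⁻¹ = b * z) : Q →* ℂˣ :=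
  MonoidHom.mk' (fun b => if g * (b : G) * g⁻¹ = b then 1 else -1) (by
    intro a b
    have e : g * ((a * b : Q) : G) * g⁻¹ = (g * a * g⁻¹) * (g * b * g⁻¹) := by
      rw [Subgroup.coe_mul]; group
    rcases hg a a.2 with ha | ha <;> rcases hg b b.2 with hb | hb
    · rw [e, ha, hb, if_pos (Subgroup.coe_mul _ a b).symm, if_pos rfl, if_pos rfl, one_mul]
    · rw [e, ha, hb, if_neg, if_pos rfl, if_neg (h.ne_mul_z _).symm, one_mul]
      rw [Subgroup.coe_mul, ← mul_assoc]; exact (h.ne_mul_z _).symm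
    · rw [e, ha, hb, if_neg, if_neg (h.ne_mul_z _).symm, if_pos rfl, mul_one]
      rw [Subgroup.coe_mul, mul_assoc, ← h.cent b b.2, ← mul_assoc]; exact (h.ne_mul_z _).symm
    · rw [e, ha, hb, if_pos, if_neg (h.ne_mul_z _).symm, if_neg (h.ne_mul_z _).symm]
      · simp
      · rw [Subgroup.coe_mul, h.cent b b.2]
        calc (a : G) * z * (z * b) = a * (z * z) * b := by group
          _ = a * b := by rw [h.sq, mul_one])

theorem sgn_eq_one_iff (h : ES Q z) (g : G)
    (hg : ∀ b ∈ Q, g * b * g⁻¹ = b ∨ g * b * g⁻¹ = b * z) (b : Q) :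
    h.sgn g hg b = 1 ↔ g * (b : G) * g⁻¹ = b := by
  classical
  simp only [sgn, MonoidHom.mk'_apply]
  split_ifs with hb
  · simp [hb]
  · simp only [hb, iff_false]
    intro e
    have := congrArg Units.val e
    norm_num at this

theorem sgn_eq_neg_one_or (h : ES Q z) (g : G)
    (hg : ∀ b ∈ Q, g * b * g⁻¹ = b ∨ g * b * g⁻¹ = b * z) (b : Q) :
    h.sgn g hg b = 1 ∨ h.sgn g hg b = -1 := by
  classical
  simp only [sgn, MonoidHom.mk'_apply]
  split_ifs <;> simp

theorem conj_eq_of_sgn_eq (h : ES Q z) {g g' : G}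
    (hg : ∀ b ∈ Q, g * b * g⁻¹ = b ∨ g * b * g⁻¹ = b * z)
    (hg' : ∀ b ∈ Q, g' * b * g'⁻¹ = b ∨ g' * b * g'⁻¹ = b * z)
    (e : h.sgn g hg = h.sgn g' hg') (b : G) (hb : b ∈ Q) : g * b * g⁻¹ = g' * b * g'⁻¹ := by
  have h1 := h.sgn_eq_one_iff g hg ⟨b, hb⟩
  have h2 := h.sgn_eq_one_iff g' hg' ⟨b, hb⟩
  rw [e] at h1
  have h3 : g * b * g⁻¹ = b ↔ g' * b * g'⁻¹ = b := h1.symm.trans h2
  rcases hg b hb with a1 | a1 <;> rcases hg' b hb with a2 | a2
  · rw [a1, a2]
  · rw [a1, h3.mp a1]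
  · rw [a2, h3.mpr a2]
  · rw [a1, a2]

/-- Every linear character of `Q` is the sign character of an element of `Q`. -/
theorem exists_sgn_eq [Finite G] (h : ES Q z) (φ : Q →* ℂˣ) :
    ∃ q, ∃ hq : q ∈ Q, h.sgn q (h.conj q hq) = φ := by
  classical
  let β : Q →* (Q →* ℂˣ) := MonoidHom.mk' (fun q => h.sgn q (h.conj q q.2)) (by
    intro p q
    ext b
    rw [MonoidHom.mul_apply]
    have e : ((p * q : Q) : G) * b * ((p * q : Q) : G)⁻¹ = p * (q * b * (q : G)⁻¹) * (p : G)⁻¹ := by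
      rw [Subgroup.coe_mul]; group
    have e2 : (p : G) * (b * z) * (p : G)⁻¹ = (p * b * (p : G)⁻¹) * z := by
      calc (p : G) * (b * z) * (p : G)⁻¹ = p * b * (z * (p⁻¹ : Q)) := by
            rw [Subgroup.coe_inv]; group
        _ = (p * b * (p : G)⁻¹) * z := by
            rw [← h.cent _ (p⁻¹).2, Subgroup.coe_inv]; group
    simp only [sgn, MonoidHom.mk'_apply]
    rw [e]
    rcases h.conj p p.2 b b.2 with hp | hp <;> rcases h.conj q q.2 b b.2 with hq | hq
    · rw [hq, hp]; simp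
    · rw [hq, e2, hp, if_neg (h.ne_mul_z _).symm]; simp
    · rw [hq, hp, if_neg (h.ne_mul_z _).symm]; simp
    · rw [hq, e2, hp, mul_assoc, h.sq, mul_one, if_neg (h.ne_mul_z _).symm]; simp)
  -- kernel of β is the centre
  have hk : β.ker = Subgroup.center Q := by
    ext q
    rw [MonoidHom.mem_ker, Subgroup.mem_center_iff]
    constructor
    · intro e b
      have : h.sgn q (h.conj q q.2) b = 1 := by
        change β q b = 1
        rw [e]; rfl
      rw [sgn_eq_one_iff] at this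
      apply Subtype.ext
      simp only [Subgroup.coe_mul]
      calc (b : G) * q = (q * b * (q : G)⁻¹) * q := by rw [this]
        _ = q * b := by group
    · intro e
      ext b
      have : h.sgn q (h.conj q q.2) b = 1 := by
        rw [sgn_eq_one_iff]
        have := congrArg Subtype.val (e b)
        simp only [Subgroup.coe_mul] at this
        rw [← this]; group
      exact congrArg Units.val this
  have hc : commutator Q = Subgroup.center Q := by
    apply le_antisymm
    · rw [commutator_def, Subgroup.commutator_le]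
      intro a _ b _
      rw [Subgroup.mem_center_iff]
      intro c
      apply Subtype.ext
      have e : ((⁅a, b⁆ : Q) : G) = (a * b * (a : G)⁻¹) * (b : G)⁻¹ := by
        simp [commutatorElement_def]
      simp only [Subgroup.coe_mul, e]
      rcases h.conj a a.2 b b.2 with h1 | h1
      · rw [h1]; simp
      · rw [h1, h.cent b b.2]
        simp [h.cent c c.2]
    · intro c hc
      rw [Subgroup.mem_center_iff] at hc
      rcases h.center c c.2 (fun b hb => (congrArg Subtype.val (hc ⟨b, hb⟩)).symm) with h1 | h1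
      · have : c = 1 := Subtype.ext h1
        rw [this]; exact one_mem _
      · obtain ⟨a, ha, b, hb, hab⟩ := h.nonab
        have : c = ⁅(⟨a, ha⟩ : Q), (⟨b, hb⟩ : Q)⁆ := by
          apply Subtype.ext
          have e : ((⁅(⟨a, ha⟩ : Q), (⟨b, hb⟩ : Q)⁆ : Q) : G) = (a * b * a⁻¹) * b⁻¹ := by
            simp [commutatorElement_def]
          rw [e, h1]
          rcases h.conj a ha b hb with h2 | h2
          · exact absurd (by rw [← mul_inv_eq_iff_eq_mul, h2]) hab
          · rw [h2, h.cent b hb]; simp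
        rw [this, commutator_def]
        exact Subgroup.commutator_mem_commutator (Subgroup.mem_top _) (Subgroup.mem_top _)
  have h1 : Nat.card (Q →* ℂˣ) = Nat.card (Abelianization Q) := by
    rw [← CommGroup.card_monoidHom_of_hasEnoughRootsOfUnity (Abelianization Q) ℂ]
    exact Nat.card_congr Abelianization.lift
  have h2 : Nat.card β.range = Nat.card (Abelianization Q) := by
    rw [← Nat.card_congr (QuotientGroup.quotientKerEquivRange β).toEquiv, hk, ← hc]
    rfl
  have hfin : Finite (Q →* ℂˣ) := Nat.finite_of_card_ne_zero (by rw [h1]; exact Nat.card_pos.ne')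
  have h3 : β.range = ⊤ := Subgroup.eq_top_of_card_eq _ (h2.trans h1.symm)
  obtain ⟨q, hq⟩ : φ ∈ β.range := h3 ▸ Subgroup.mem_top φ
  exact ⟨q, q.2, hq⟩

/-- An element acting trivially on `Q / ⟨z⟩` acts on `Q` as an element of `Q`. -/
theorem exists_inner [Finite G] (h : ES Q z) (g : G)
    (hg : ∀ b ∈ Q, g * b * g⁻¹ = b ∨ g * b * g⁻¹ = b * z) :
    ∃ q ∈ Q, ∀ b ∈ Q, q * b * q⁻¹ = g * b * g⁻¹ := by
  obtain ⟨q, hq, e⟩ := h.exists_sgn_eq (h.sgn g hg)
  exact ⟨q, hq, fun b hb => h.conj_eq_of_sgn_eq _ _ e b hb⟩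

theorem mem_of_trivial [Finite G] (h : ES Q z) (hC : Subgroup.centralizer (Q : Set G) ≤ Q) (g : G)
    (hg : ∀ b ∈ Q, g * b * g⁻¹ = b ∨ g * b * g⁻¹ = b * z) : g ∈ Q := by
  obtain ⟨q, hq, e⟩ := h.exists_inner g hg
  have : q⁻¹ * g ∈ Q := by
    apply hC
    rw [Subgroup.mem_centralizer_iff]
    intro b hb
    calc b * (q⁻¹ * g) = q⁻¹ * (q * b * q⁻¹) * g := by group
      _ = q⁻¹ * g * b := by rw [e b hb]; group
  simpa using Q.mul_mem hq this

/-- Separation: an element of `Q` outside a subgroup `A ∋ z` is moved by some element of `Q`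
centralizing `A`. -/
theorem exists_sep [Finite G] (h : ES Q z) {A : Subgroup G} (hA : A ≤ Q) (hz : z ∈ A) {b : G}
    (hb : b ∈ Q) (hbA : b ∉ A) :
    ∃ q ∈ Q, (∀ a ∈ A, q * a * q⁻¹ = a) ∧ q * b * q⁻¹ = b * z := by
  classical
  have hN : (A.subgroupOf Q).Normal := ⟨by
    intro a ha c
    rw [Subgroup.mem_subgroupOf] at ha ⊢
    simp only [Subgroup.coe_mul, Subgroup.coe_inv]
    rcases h.conj c c.2 a a.2 with h1 | h1 <;> rw [h1]
    · exact ha
    · exact A.mul_mem ha hz⟩
  have hcomm : ∀ u v : Q ⧸ A.subgroupOf Q, u * v = v * u := by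
    intro u v
    obtain ⟨u, rfl⟩ := QuotientGroup.mk_surjective u
    obtain ⟨v, rfl⟩ := QuotientGroup.mk_surjective v
    rw [← QuotientGroup.mk_mul, ← QuotientGroup.mk_mul, QuotientGroup.eq, Subgroup.mem_subgroupOf]
    have e : (((u * v)⁻¹ * (v * u) : Q) : G) =
        ((v⁻¹ : Q) * (u⁻¹ : Q) * ((v⁻¹ : Q) : G)⁻¹) * u := by
      simp [mul_assoc]
    rw [e]
    rcases h.conj _ (v⁻¹).2 _ (u⁻¹).2 with h1 | h1 <;> rw [h1]
    · simp
    · rw [mul_assoc, ← h.cent u u.2]; simpa using hz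
  let : CommGroup (Q ⧸ A.subgroupOf Q) := { (inferInstance : Group _) with mul_comm := hcomm }
  have hb1 : (QuotientGroup.mk (⟨b, hb⟩ : Q) : Q ⧸ A.subgroupOf Q) ≠ 1 := by
    rw [Ne, QuotientGroup.eq_one_iff, Subgroup.mem_subgroupOf]; exact hbA
  obtain ⟨φ, hφ⟩ := CommGroup.exists_apply_ne_one_of_hasEnoughRootsOfUnity _ ℂ hb1
  obtain ⟨q, hq, e⟩ := h.exists_sgn_eq (φ.comp (QuotientGroup.mk' _))
  refine ⟨q, hq, fun a ha => ?_, ?_⟩
  · have := (h.sgn_eq_one_iff q (h.conj q hq) ⟨a, hA ha⟩).mp (by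
      rw [e, MonoidHom.comp_apply, QuotientGroup.mk'_apply,
        (QuotientGroup.eq_one_iff _).mpr (Subgroup.mem_subgroupOf.mpr ha), map_one])
    exact this
  · rcases h.conj q hq b hb with h1 | h1
    · exfalso
      apply hφ
      have := (h.sgn_eq_one_iff q (h.conj q hq) ⟨b, hb⟩).mpr h1
      rwa [e] at this
    · exact h1

theorem sq_mem (h : ES Q z) {a : G} (ha : a ∈ Q) : a * a = 1 ∨ a * a = z := by
  apply h.center _ (Q.mul_mem ha ha)
  intro b hb
  have e : ∀ c ∈ Q, a * (c * z) * a⁻¹ = a * c * a⁻¹ * z := by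
    intro c _
    calc a * (c * z) * a⁻¹ = a * c * (z * a⁻¹) := by group
      _ = a * c * a⁻¹ * z := by rw [← h.cent _ (Q.inv_mem ha)]; group
  have : a * (a * b * a⁻¹) * a⁻¹ = b := by
    rcases h.conj a ha b hb with h1 | h1
    · rw [h1, h1]
    · rw [h1, e b hb, h1, mul_assoc, h.sq, mul_one]
  calc a * a * b = (a * (a * b * a⁻¹) * a⁻¹) * (a * a) := by group
    _ = b * (a * a) := by rw [this]

/-- Transport along conjugation. -/
theorem conj_map (h : ES Q z) (g : G) :
    ES (Q.map (MulAut.conj g).toMonoidHom) (g * z * g⁻¹) where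
  mem := ⟨z, h.mem, rfl⟩
  ne_one := fun e => h.ne_one (by
    calc z = g⁻¹ * (g * z * g⁻¹) * g := by group
      _ = 1 := by rw [e]; group)
  sq := by
    calc g * z * g⁻¹ * (g * z * g⁻¹) = g * (z * z) * g⁻¹ := by group
      _ = 1 := by rw [h.sq]; group
  cent := by
    rintro _ ⟨a, ha, rfl⟩
    change g * a * g⁻¹ * (g * z * g⁻¹) = g * z * g⁻¹ * (g * a * g⁻¹)
    calc g * a * g⁻¹ * (g * z * g⁻¹) = g * (a * z) * g⁻¹ := by group
      _ = g * z * g⁻¹ * (g * a * g⁻¹) := by rw [h.cent a ha]; group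
  conj := by
    rintro _ ⟨a, ha, rfl⟩ _ ⟨b, hb, rfl⟩
    change g * a * g⁻¹ * (g * b * g⁻¹) * (g * a * g⁻¹)⁻¹ = g * b * g⁻¹ ∨
      g * a * g⁻¹ * (g * b * g⁻¹) * (g * a * g⁻¹)⁻¹ = g * b * g⁻¹ * (g * z * g⁻¹)
    have e : g * a * g⁻¹ * (g * b * g⁻¹) * (g * a * g⁻¹)⁻¹ = g * (a * b * a⁻¹) * g⁻¹ := by group
    rw [e]
    rcases h.conj a ha b hb with h1 | h1 <;> rw [h1]
    · left; rfl
    · right; group
  center := by
    rintro _ ⟨a, ha, rfl⟩ hc
    change g * a * g⁻¹ = 1 ∨ g * a * g⁻¹ = g * z * g⁻¹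
    rcases h.center a ha (fun b hb => by
      have := hc _ ⟨b, hb, rfl⟩
      change g * a * g⁻¹ * (g * b * g⁻¹) = g * b * g⁻¹ * (g * a * g⁻¹) at this
      calc a * b = g⁻¹ * (g * a * g⁻¹ * (g * b * g⁻¹)) * g := by group
        _ = b * a := by rw [this]; group) with h1 | h1 <;> rw [h1]
    · left; group
    · right; rfl
  nonab := by
    obtain ⟨a, ha, b, hb, hab⟩ := h.nonab
    refine ⟨_, ⟨a, ha, rfl⟩, _, ⟨b, hb, rfl⟩, fun e => hab ?_⟩
    change g * a * g⁻¹ * (g * b * g⁻¹) = g * b * g⁻¹ * (g * a * g⁻¹) at e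
    calc a * b = g⁻¹ * (g * a * g⁻¹ * (g * b * g⁻¹)) * g := by group
      _ = b * a := by rw [e]; group

end ES

/-- An extraspecial 2-subgroup with a given central involution satisfies `ES`. -/
theorem es_of_isExtraspecial {G : Type*} [Group G] {Q : Subgroup G} {z : G}
    (hE : Cfsg.IsExtraspecial 2 Q) (hz : orderOf z = 2) (hzQ : z ∈ Q)
    (hc : ∀ a ∈ Q, a * z = z * a) : ES Q z := by
  obtain ⟨⟨-, -, hcomm⟩, hcard⟩ := hE
  have hz1 : z ≠ 1 := by rintro rfl; simp at hz
  have hzc : (⟨z, hzQ⟩ : Q) ∈ Subgroup.center Q :=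
    Subgroup.mem_center_iff.mpr fun a => Subtype.ext (hc a a.2)
  have hcen : ∀ a : Q, a ∈ Subgroup.center Q → (a : G) = 1 ∨ (a : G) = z := by
    intro a ha
    by_contra hne
    push Not at hne
    obtain ⟨y, -, hy⟩ := (Nat.card_eq_two_iff' (1 : Subgroup.center Q)).mp hcard
    have e1 := hy ⟨a, ha⟩ (fun e => hne.1 (congrArg (fun t : Subgroup.center Q => ((t : Q) : G)) e))
    have e2 := hy ⟨_, hzc⟩ (fun e => hz1 (congrArg (fun t : Subgroup.center Q => ((t : Q) : G)) e))
    exact hne.2 (congrArg (fun t : Subgroup.center Q => ((t : Q) : G)) (e1.trans e2.symm))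
  refine ⟨hzQ, hz1, by rw [← pow_two, ← hz, pow_orderOf_eq_one], hc, ?_, ?_, ?_⟩
  · intro a ha b hb
    have : ⁅(⟨a, ha⟩ : Q), (⟨b, hb⟩ : Q)⁆ ∈ Subgroup.center Q := by
      rw [← hcomm, commutator_def]
      exact Subgroup.commutator_mem_commutator (Subgroup.mem_top _) (Subgroup.mem_top _)
    have e : ((⁅(⟨a, ha⟩ : Q), (⟨b, hb⟩ : Q)⁆ : Q) : G) = (a * b * a⁻¹) * b⁻¹ := by
      simp [commutatorElement_def]
    rcases hcen _ this with h1 | h1 <;> rw [e] at h1
    · left; exact mul_inv_eq_one.mp h1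
    · right; rw [hc b hb, ← h1]; group
  · intro a ha h
    exact hcen ⟨a, ha⟩ (Subgroup.mem_center_iff.mpr fun b => Subtype.ext (h b b.2).symm)
  · by_contra hne
    push Not at hne
    have : commutator Q = ⊥ := by
      rw [eq_bot_iff, commutator_def, Subgroup.commutator_le]
      intro a _ b _
      rw [Subgroup.mem_bot, commutatorElement_eq_one_iff_mul_comm]
      exact Subtype.ext (hne a a.2 b b.2)
    rw [← hcomm, this] at hcard
    simp at hcard

/-- `O₂(C_G(x))` as a subgroup of `G`. -/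
def coreC {G : Type*} [Group G] (x : G) : Subgroup G :=
  (Cfsg.pCore 2 ↥(Subgroup.centralizer ({x} : Set G))).map (Subgroup.centralizer ({x} : Set G)).subtype

theorem coreC_map_le {G : Type*} [Group G] (x g : G) :
    (coreC x).map (MulAut.conj g).toMonoidHom ≤ coreC (g * x * g⁻¹) := by
  rw [coreC, Cfsg.pCore, sSup_eq_iSup, Subgroup.map_map]
  simp only [Subgroup.map_iSup, iSup_le_iff]
  rintro N ⟨hN, hP⟩
  set f := ((MulAut.conj g).toMonoidHom.comp (Subgroup.centralizer ({x} : Set G)).subtype) with hf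
  have hle : N.map f ≤ Subgroup.centralizer ({g * x * g⁻¹} : Set G) := by
    rintro _ ⟨n, _, rfl⟩
    have := Subgroup.mem_centralizer_singleton_iff.mp n.2
    rw [Subgroup.mem_centralizer_singleton_iff]
    change g * n * g⁻¹ * (g * x * g⁻¹) = g * x * g⁻¹ * (g * n * g⁻¹)
    calc g * n * g⁻¹ * (g * x * g⁻¹) = g * (n * x) * g⁻¹ := by group
      _ = _ := by rw [this]; group
  rw [← Subgroup.map_subgroupOf_eq_of_le hle, coreC]
  apply Subgroup.map_mono
  apply le_sSup
  constructor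
  · constructor
    intro a ha c
    rw [Subgroup.mem_subgroupOf] at ha ⊢
    obtain ⟨n, hn, e⟩ := ha
    have hc := Subgroup.mem_centralizer_singleton_iff.mp c.2
    have hc' : g⁻¹ * c * g ∈ Subgroup.centralizer ({x} : Set G) := by
      rw [Subgroup.mem_centralizer_singleton_iff]
      calc g⁻¹ * c * g * x = g⁻¹ * (c * (g * x * g⁻¹)) * g := by group
        _ = _ := by rw [hc]; group
    refine ⟨_, hN.conj_mem n hn ⟨_, hc'⟩, ?_⟩
    change g * n * g⁻¹ = a at e
    change g * (g⁻¹ * c * g * n * (g⁻¹ * c * g)⁻¹) * g⁻¹ = c * a * (c : G)⁻¹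
    rw [← e]; group
  · exact (hP.map f).of_equiv (Subgroup.subgroupOfEquivOfLe hle).symm

theorem coreC_conj {G : Type*} [Group G] (x g : G) :
    coreC (g * x * g⁻¹) = (coreC x).map (MulAut.conj g).toMonoidHom := by
  apply le_antisymm _ (coreC_map_le x g)
  intro a ha
  have h1 := coreC_map_le (g * x * g⁻¹) g⁻¹ ⟨a, ha, rfl⟩
  rw [show g⁻¹ * (g * x * g⁻¹) * g⁻¹⁻¹ = x by group] at h1
  refine ⟨_, h1, ?_⟩
  change g * (g⁻¹ * a * g⁻¹⁻¹) * g⁻¹ = a
  group

theorem conj_mem_coreC {G : Type*} [Group G] {x a : G} (g : G) (ha : a ∈ coreC x) :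
    g * a * g⁻¹ ∈ coreC (g * x * g⁻¹) := coreC_map_le x g ⟨a, ha, rfl⟩

theorem conj_mem_coreC_of_comm {G : Type*} [Group G] {x a g : G} (hg : g * x * g⁻¹ = x)
    (ha : a ∈ coreC x) : g * a * g⁻¹ ∈ coreC x := by
  have := conj_mem_coreC g ha
  rwa [hg] at this

theorem coreC_comm {G : Type*} [Group G] {x a : G} (ha : a ∈ coreC x) : a * x = x * a := by
  obtain ⟨b, -, rfl⟩ := ha
  exact Subgroup.mem_centralizer_singleton_iff.mp b.2

theorem self_mem_coreC {G : Type*} [Group G] {x : G} (hx : orderOf x = 2) : x ∈ coreC x := by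
  have hm : x ∈ Subgroup.centralizer ({x} : Set G) := Subgroup.mem_centralizer_singleton_iff.mpr rfl
  refine ⟨⟨x, hm⟩, ?_, rfl⟩
  have : Subgroup.zpowers (⟨x, hm⟩ : Subgroup.centralizer ({x} : Set G)) ≤ Cfsg.pCore 2 _ := by
    apply le_sSup
    constructor
    · have hle : Subgroup.zpowers (⟨x, hm⟩ : Subgroup.centralizer ({x} : Set G)) ≤
          Subgroup.center _ := by
        rw [Subgroup.zpowers_le, Subgroup.mem_center_iff]
        intro c
        exact Subtype.ext (Subgroup.mem_centralizer_singleton_iff.mp c.2)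
      constructor
      intro n hn c
      rw [Subgroup.mem_center_iff.mp (hle hn) c, mul_inv_cancel_right]
      exact hn
    · apply IsPGroup.of_card (n := 1)
      rw [Nat.card_zpowers, ← Subgroup.orderOf_coe, hx]; rfl
  exact this (Subgroup.mem_zpowers _)

/-- The standing data of a large extraspecial 2-subgroup at an involution `u`. -/
structure Large {G : Type*} [Group G] (u : G) : Prop where
  es : ES (coreC u) u
  cent : Subgroup.centralizer (coreC u : Set G) ≤ coreC u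

theorem Large.conj {G : Type*} [Group G] {u : G} (h : Large u) (g : G) : Large (g * u * g⁻¹) where
  es := by rw [coreC_conj]; exact h.es.conj_map g
  cent := by
    intro c hc
    have : g⁻¹ * c * g ∈ coreC u := by
      apply h.cent
      rw [Subgroup.mem_centralizer_iff] at hc ⊢
      intro a ha
      have := hc _ (conj_mem_coreC g ha)
      calc a * (g⁻¹ * c * g) = g⁻¹ * (g * a * g⁻¹ * c) * g := by group
        _ = _ := by rw [this]; group
    have h2 := conj_mem_coreC g this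
    rwa [show g * (g⁻¹ * c * g) * g⁻¹ = c by group] at h2

theorem large_of {G : Type*} [Group G] {z : G} (hz : orderOf z = 2)
    (hE : Cfsg.IsExtraspecial 2 ↥(coreC z))
    (hC : Subgroup.centralizer ((coreC z : Subgroup G) : Set G) ≤ coreC z) : Large z :=
  ⟨es_of_isExtraspecial hE hz (self_mem_coreC hz) fun _ ha => coreC_comm ha, hC⟩

end H96
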